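import Cfsg.Agent.SiftX.Cent32
import Cfsg.Agent.Fus.SubR

/-!
Simplicity of the 2-fusion system of a group with an involution centraliser `2^{1+4}_- : A₅` and one class of
involutions (owner: helper12).
-/

set_option autoImplicit false

namespace Cfsg.Agent.SiftX

open Subgroup Pointwise

theorem M32.gen_inv : ∀ m : M32, ∃ a b : M32, a * a = 1 ∧ b * b = 1 ∧ m = a * b := by decide +kernel

theorem a5_four : ∀ σ : JC.A5, σ * σ * (σ * σ) = 1 → σ * σ = 1 := by decide +kernel

theorem a5_two : ∀ σ : JC.A5, ∃ α : JC.A5, α * α = 1 ∧ (α * σ) * (α * σ) = 1 := by decide +kernel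

theorem facts32 {G : Type*} [Group G] [Finite G] (φ : M32 →* G) {x y : G} (hx : x ^ 3 = 1) (hy : y ^ 5 = 1)
    (hxy : (x * y) ^ 2 = 1) (hx1 : x ≠ 1) (hz : φ M32.z ≠ 1)
    (cx : x * φ M32.z = φ M32.z * x) (cy : y * φ M32.z = φ M32.z * y)
    (nx : ∀ m, ∃ m', x⁻¹ * φ m * x = φ m') (ny : ∀ m, ∃ m', y⁻¹ * φ m * y = φ m')
    (hle : Nat.card (centralizer ({φ M32.z} : Set G)) ≤ 1920) :
    ∃ (R A : Subgroup G) (_ : A ≃* alternatingGroup (Fin 5)), R = φ.range ∧ x ∈ A ∧ Nat.card R = 32 ∧ R ≤ centralizer ({φ M32.z} : Set G) ∧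
      A ≤ centralizer ({φ M32.z} : Set G) ∧ Disjoint R A ∧ (∀ c ∈ centralizer ({φ M32.z} : Set G), ∃ q ∈ R, ∃ a ∈ A, c = q * a) ∧
      centralizer ({φ M32.z} : Set G) ≤ normalizer (R : Set G) ∧ Nat.card (centralizer ({φ M32.z} : Set G)) = 1920 := by
  have hinj := M32.hom_injective φ hz
  set C := centralizer ({φ M32.z} : Set G) with hC
  set R := φ.range with hR
  set A := closure ({x, y} : Set G) with hA
  obtain ⟨eA⟩ := H14.Tri.alt5_of_rel hx hy hxy hx1
  rw [← hA] at eA
  have hcA : Nat.card A = 60 := by rw [Nat.card_congr eA.toEquiv, H56.Tri235.card_alt5]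
  have eR : M32 ≃* R := MonoidHom.ofInjective hinj
  have hcR : Nat.card R = 32 := by rw [← Nat.card_congr eR.toEquiv, M32.card_eq]
  have hxA : x ∈ A := subset_closure (by simp)
  have hRC : R ≤ C := by
    rintro _ ⟨m, rfl⟩
    rw [hC, mem_centralizer_singleton_iff, ← map_mul, ← map_mul, M32.z_central]
  have hAC : A ≤ C := by
    rw [hA, closure_le]
    rintro _ (rfl | rfl)
    · exact mem_centralizer_singleton_iff.2 cx
    · exact mem_centralizer_singleton_iff.2 cy
  have hAN : A ≤ normalizer (R : Set G) := by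
    rw [hA, closure_le]
    rintro _ (rfl | rfl)
    · rw [SetLike.mem_coe, ← inv_mem_iff]
      refine mem_normalizer_fintype ?_
      rintro _ ⟨m, rfl⟩
      obtain ⟨m', hm'⟩ := nx m
      rw [inv_inv, hm']
      exact ⟨m', rfl⟩
    · rw [SetLike.mem_coe, ← inv_mem_iff]
      refine mem_normalizer_fintype ?_
      rintro _ ⟨m, rfl⟩
      obtain ⟨m', hm'⟩ := ny m
      rw [inv_inv, hm']
      exact ⟨m', rfl⟩
  have : IsSimpleGroup (alternatingGroup (Fin 5)) := alternatingGroup.isSimpleGroup (by simp)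
  have : IsSimpleGroup A := eA.isSimpleGroup
  have hdis : Disjoint R A := by
    rw [disjoint_iff]
    have h1 : (R.subgroupOf A).Normal := normal_subgroupOf_of_le_normalizer hAN
    rcases IsSimpleGroup.eq_bot_or_eq_top_of_normal _ h1 with h | h
    · rwa [subgroupOf_eq_bot, disjoint_iff] at h
    · rw [subgroupOf_eq_top] at h
      have h2 := card_dvd_of_le h
      rw [hcA, hcR] at h2
      norm_num at h2
  set Q := R.subgroupOf C with hQ
  set H := A.subgroupOf C with hH
  have hcQ : Nat.card Q = 32 := by rw [← hcR]; exact Nat.card_congr (subgroupOfEquivOfLe hRC).toEquiv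
  have hcH : Nat.card H = 60 := by rw [← hcA]; exact Nat.card_congr (subgroupOfEquivOfLe hAC).toEquiv
  have hdis' : Disjoint Q H := by
    rw [disjoint_iff, eq_bot_iff]
    intro c hc
    rw [mem_inf, hQ, hH, mem_subgroupOf, mem_subgroupOf] at hc
    rw [mem_bot]
    apply Subtype.ext
    have h1 : (c : G) ∈ R ⊓ A := hc
    rw [disjoint_iff.1 hdis, mem_bot] at h1
    exact h1
  have hcC : Nat.card C = 1920 := by
    apply le_antisymm hle
    have h1 := Nat.card_le_card_of_injective _ (mul_injective_of_disjoint hdis')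
    rw [Nat.card_prod, hcQ, hcH] at h1
    exact h1
  have hcomp : Q.IsComplement' H := isComplement'_of_card_mul_and_disjoint (by rw [hcQ, hcH, hcC]) hdis'
  have hmem : ∀ c ∈ C, ∃ q ∈ R, ∃ a ∈ A, c = q * a := by
    intro c hc
    obtain ⟨⟨q, a⟩, h1⟩ := hcomp.2 ⟨c, hc⟩
    exact ⟨q, mem_subgroupOf.1 q.2, a, mem_subgroupOf.1 a.2, (congrArg Subtype.val h1).symm⟩
  have hCN : C ≤ normalizer (R : Set G) := by
    intro c hc
    obtain ⟨q, hq, a, ha, rfl⟩ := hmem c hc
    exact mul_mem (le_normalizer hq) (hAN ha)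
  exact ⟨R, A, eA, rfl, hxA, hcR, hRC, hAC, hdis, hmem, hCN, hcC⟩

/-- a product of involutions lies in a subgroup containing all involutions -/
theorem fusion32 {G : Type*} [Group G] [Finite G] (φ : M32 →* G) {x y : G} (hx : x ^ 3 = 1) (hy : y ^ 5 = 1)
    (hxy : (x * y) ^ 2 = 1) (hx1 : x ≠ 1) (hz : φ M32.z ≠ 1)
    (cx : x * φ M32.z = φ M32.z * x) (cy : y * φ M32.z = φ M32.z * y)
    (nx : ∀ m, ∃ m', x⁻¹ * φ m * x = φ m') (ny : ∀ m, ∃ m', y⁻¹ * φ m * y = φ m')
    (hle : Nat.card (centralizer ({φ M32.z} : Set G)) ≤ 1920)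
    (mx : ∃ m, x⁻¹ * φ m * x ≠ φ m ∧ x⁻¹ * φ m * x ≠ φ (M32.z * m))
    (hcl : ∀ t : G, t * t = 1 → t ≠ 1 → IsConj (φ M32.z) t) {k : ℕ} (hk : ¬ 2 ∣ k) (hcard : Nat.card G = 128 * k)
    {H : Type*} [Group H] [Finite H] (e : G ≃* H) (S : Sylow 2 H) :
    (Cfsg.groupFusionSystem (S : Subgroup H)).IsSimple 2 := by
  have hfact : Fact (Nat.Prime 2) := ⟨Nat.prime_two⟩
  have hinj := M32.hom_injective φ hz
  obtain ⟨R, A, eA, hR, hxA, hcR, hRC, hAC, hdis, hmem, hCN, hcC⟩ := facts32 φ hx hy hxy hx1 hz cx cy nx ny hle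
  set C := centralizer ({φ M32.z} : Set G) with hC
  have : IsSimpleGroup (alternatingGroup (Fin 5)) := alternatingGroup.isSimpleGroup (by simp)
  have : IsSimpleGroup A := eA.isSimpleGroup
  have hcA : Nat.card A = 60 := by rw [Nat.card_congr eA.toEquiv, H56.Tri235.card_alt5]
  have hzR : φ M32.z ∈ R := by rw [hR]; exact ⟨_, rfl⟩
  -- the centraliser of `R`
  have hRR : ∀ c : G, (∀ r ∈ R, r * c = c * r) → c ∈ R := by
    intro c hc
    have hcC' : c ∈ C := mem_centralizer_singleton_iff.2 (hc _ hzR).symm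
    -- elements of A acting on R as inner automorphisms
    let K : Subgroup A :=
      { carrier := {a | ∃ q ∈ R, ∀ r ∈ R, (a : G) * r * (a : G)⁻¹ = q * r * q⁻¹}
        one_mem' := ⟨1, one_mem _, fun r _ => by simp⟩
        mul_mem' := by
          rintro a b ⟨q, hq, h1⟩ ⟨q', hq', h2⟩
          refine ⟨q * q', mul_mem hq hq', fun r hr => ?_⟩
          have h3 := h2 r hr
          have h4 := h1 (q' * r * q'⁻¹) (mul_mem (mul_mem hq' hr) (inv_mem hq'))
          calc ((a * b : A) : G) * r * ((a * b : A) : G)⁻¹ = (a : G) * ((b : G) * r * (b : G)⁻¹) * (a : G)⁻¹ := by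
                rw [Subgroup.coe_mul]; group
            _ = q * (q' * r * q'⁻¹) * q⁻¹ := by rw [h3, h4]
            _ = q * q' * r * (q * q')⁻¹ := by group
        inv_mem' := by
          rintro a ⟨q, hq, h1⟩
          refine ⟨q⁻¹, inv_mem hq, fun r hr => ?_⟩
          have h2 := h1 (q⁻¹ * r * q) (mul_mem (mul_mem (inv_mem hq) hr) hq)
          have h3 : q * (q⁻¹ * r * q) * q⁻¹ = r := by group
          rw [h3] at h2
          rw [inv_inv, Subgroup.coe_inv, inv_inv]
          nth_rewrite 1 [← h2]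
          group }
    have hKn : K.Normal := by
      refine ⟨?_⟩
      rintro a ⟨q, hq, h1⟩ b
      have hb : ((b : G)) ∈ normalizer (R : Set G) := hCN (hAC b.2)
      have hb1 : ∀ r ∈ R, (b : G) * r * (b : G)⁻¹ ∈ R := fun r hr => (mem_normalizer_iff.1 hb r).1 hr
      have hb2 : ∀ r ∈ R, (b : G)⁻¹ * r * (b : G) ∈ R := fun r hr => by
        have := (mem_normalizer_iff.1 (inv_mem hb) r).1 hr
        rwa [inv_inv] at this
      refine ⟨(b : G) * q * (b : G)⁻¹, hb1 q hq, fun r hr => ?_⟩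
      have h2 := h1 _ (hb2 r hr)
      calc ((b * a * b⁻¹ : A) : G) * r * ((b * a * b⁻¹ : A) : G)⁻¹ =
            (b : G) * ((a : G) * ((b : G)⁻¹ * r * (b : G)) * (a : G)⁻¹) * (b : G)⁻¹ := by
              rw [Subgroup.coe_mul, Subgroup.coe_mul, Subgroup.coe_inv]; group
        _ = (b : G) * (q * ((b : G)⁻¹ * r * (b : G)) * q⁻¹) * (b : G)⁻¹ := by rw [h2]
        _ = (b : G) * q * (b : G)⁻¹ * r * ((b : G) * q * (b : G)⁻¹)⁻¹ := by group
    have hK : K = ⊥ := by
      rcases IsSimpleGroup.eq_bot_or_eq_top_of_normal K hKn with h | h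
      · exact h
      · exfalso
        have h1 : (⟨x, hxA⟩ : A) ∈ K := by rw [h]; exact mem_top _
        have h2 := inv_mem h1
        obtain ⟨q, hq, h3⟩ := h2
        rw [hR] at hq
        obtain ⟨n, rfl⟩ := hq
        obtain ⟨m, hm1, hm2⟩ := mx
        have h4 := h3 (φ m) (by rw [hR]; exact ⟨m, rfl⟩)
        have h5 : x⁻¹ * φ m * x = φ (n * m * n⁻¹) := by
          rw [map_mul, map_mul, map_inv, ← h4, Subgroup.coe_inv, inv_inv]
        rcases M32.comm n m with h6 | h6
        · apply hm1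
          rw [h5, h6, mul_inv_cancel_right]
        · apply hm2
          rw [h5, h6, mul_assoc M32.z, mul_inv_cancel_right]
    obtain ⟨q, hq, a, ha, rfl⟩ := hmem c hcC'
    have h1 : (⟨a, ha⟩ : A) ∈ K := by
      refine ⟨q⁻¹, inv_mem hq, fun r hr => ?_⟩
      have h2 := hc r hr
      have h3 : a * r * a⁻¹ = q⁻¹ * (q * a * r) * a⁻¹ := by group
      show a * r * a⁻¹ = q⁻¹ * r * q⁻¹⁻¹
      rw [h3, ← h2]; group
    rw [hK, mem_bot] at h1
    have h2 : a = 1 := congrArg Subtype.val h1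
    rw [h2, mul_one]
    exact hq
  -- the Sylow subgroup
  obtain ⟨P⟩ : Nonempty (Sylow 2 (alternatingGroup (Fin 5))) := inferInstance
  have hcP : Nat.card P = 4 := by
    have h1 := P.card_eq_multiplicity
    rw [H56.Tri235.card_alt5, show (60 : ℕ) = 2 ^ 2 * 15 by norm_num] at h1
    rw [h1]
    have : (2 ^ 2 * 15 : ℕ).factorization 2 = 2 := by
      rw [Nat.factorization_mul (by norm_num) (by norm_num), Finsupp.add_apply, Nat.Prime.factorization_pow Nat.prime_two,
        Finsupp.single_eq_same, Nat.factorization_eq_zero_of_not_dvd (by norm_num)]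
    rw [this]
    norm_num
  set D : Subgroup G := ((P : Subgroup (alternatingGroup (Fin 5))).map eA.symm.toMonoidHom).map A.subtype with hD
  have hcD : Nat.card D = 4 := by
    rw [hD, Nat.card_congr (Subgroup.equivMapOfInjective _ _ A.subtype_injective).symm.toEquiv,
      Nat.card_congr (Subgroup.equivMapOfInjective _ _ eA.symm.injective).symm.toEquiv]
    exact hcP
  have hDA : D ≤ A := by rintro _ ⟨a, _, rfl⟩; exact a.2
  have hD2 : ∀ d ∈ D, d * d = 1 := by
    rintro _ ⟨a, ⟨s, hs, rfl⟩, rfl⟩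
    have h1 : s * s * (s * s) = 1 := by
      have h2 : (⟨s, hs⟩ : P) ^ 4 = 1 := by rw [← hcP]; exact pow_card_eq_one'
      have h3 : s ^ 4 = 1 := congrArg Subtype.val h2
      rw [← h3]; simp only [pow_succ, pow_zero, one_mul, mul_assoc]
    have h4 := a5_four s h1
    have h5 : (eA.symm s) * (eA.symm s) = 1 := by rw [← map_mul, h4, map_one]
    exact congrArg Subtype.val h5
  set U : Subgroup G := R ⊔ D with hU
  have hDN : D ≤ normalizer (R : Set G) := (hDA.trans hAC).trans hCN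
  have hUmem : ∀ u ∈ U, ∃ q ∈ R, ∃ d ∈ D, u = q * d := by
    intro u hu
    have h1 : (U : Set G) = (R : Set G) * (D : Set G) := Subgroup.coe_mul_of_right_le_normalizer_left R D hDN
    have h2 : u ∈ (R : Set G) * (D : Set G) := by rw [← h1]; exact hu
    obtain ⟨q, hq, d, hd, rfl⟩ := h2
    exact ⟨q, hq, d, hd, rfl⟩
  have hdis2 : Disjoint R D := hdis.mono_right hDA
  have hcU : Nat.card U = 128 := by
    have h1 : Function.Bijective (fun p : R × D => (⟨p.1 * p.2, mul_mem (le_sup_left (a := R) p.1.2)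
        (le_sup_right (b := D) p.2.2)⟩ : U)) := by
      constructor
      · intro p p' h
        exact mul_injective_of_disjoint hdis2 (congrArg Subtype.val h)
      · rintro ⟨u, hu⟩
        obtain ⟨q, hq, d, hd, rfl⟩ := hUmem u hu
        exact ⟨(⟨q, hq⟩, ⟨d, hd⟩), rfl⟩
    rw [← Nat.card_eq_of_bijective _ h1, Nat.card_prod, hcR, hcD]
  have hcen : ∀ c : G, (∀ r ∈ R, r * c = c * r) → c = 1 ∨ c = φ M32.z := by
    intro c hc
    have h1 := hRR c hc
    rw [hR] at h1
    obtain ⟨m, rfl⟩ := h1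
    have h2 : ∀ b, b * m = m * b := fun b => hinj (by
      rw [map_mul, map_mul]; exact hc _ (by rw [hR]; exact ⟨b, rfl⟩))
    rcases M32.cen m h2 with h | h
    · left; rw [h, map_one]
    · right; rw [h]
  have hz2 : φ M32.z * φ M32.z = 1 := by rw [← map_mul, M32.z_sq, map_one]
  refine Fus.isSimple_of_subgroup_R (⊤ : Subgroup G) (Subgroup.topEquiv.trans e) U R le_top le_sup_left 7 k
    (by norm_num) (by rw [hcU]; norm_num) hk (by rw [Subgroup.card_top, hcard, hcU]) {φ M32.z} ?_ ?_ ?_ ?_ S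
  · intro c _ h
    exact hcen c fun r hr => h r (le_sup_left (a := R) hr)
  · intro T hTU hz' hT
    obtain ⟨_, rfl, hzT⟩ := hz'
    have h1 : ∀ u ∈ U, u * u = 1 → u ∈ T := by
      intro u hu hu2
      by_cases hu1 : u = 1
      · rw [hu1]; exact one_mem _
      · obtain ⟨g, hg⟩ := isConj_iff.1 (hcl u hu2 hu1)
        rw [← hg]
        exact hT _ hzT g (mem_top _) (by rw [hg]; exact hu)
    have h2 : R ≤ T := by
      intro r hr
      have hr' := hr
      rw [hR] at hr'
      obtain ⟨m, rfl⟩ := hr'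
      obtain ⟨a, b, ha, hb, rfl⟩ := M32.gen_inv m
      rw [map_mul]
      refine mul_mem (h1 _ ?_ (by rw [← map_mul, ha, map_one])) (h1 _ ?_ (by rw [← map_mul, hb, map_one]))
      · exact le_sup_left (a := R) (by rw [hR]; exact ⟨a, rfl⟩)
      · exact le_sup_left (a := R) (by rw [hR]; exact ⟨b, rfl⟩)
    exact sup_le h2 fun d hd => h1 d (le_sup_right (b := D) hd) (hD2 d hd)
  · intro c _ h
    exact hRR c h
  · intro g _ hgU
    have hzU : φ M32.z ∈ U := le_sup_left (a := R) hzR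
    have hUC : ∀ u ∈ U, u * φ M32.z = φ M32.z * u := by
      intro u hu
      exact mem_centralizer_singleton_iff.1 ((sup_le hRC (hDA.trans hAC) : U ≤ C) hu)
    have hgz : g * φ M32.z * g⁻¹ = φ M32.z := by
      have hcomm : ∀ u ∈ U, u * (g * φ M32.z * g⁻¹) = g * φ M32.z * g⁻¹ * u := by
        intro u hu
        have hu' : g⁻¹ * u * g ∈ U := by
          rw [hgU]
          have : g * (g⁻¹ * u * g) * g⁻¹ = u := by group
          rw [this]; exact hu
        have h3 : (g⁻¹ * u * g) * φ M32.z = φ M32.z * (g⁻¹ * u * g) := hUC _ hu'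
        calc u * (g * φ M32.z * g⁻¹) = g * ((g⁻¹ * u * g) * φ M32.z) * g⁻¹ := by group
          _ = g * (φ M32.z * (g⁻¹ * u * g)) * g⁻¹ := by rw [h3]
          _ = g * φ M32.z * g⁻¹ * u := by group
      rcases hcen _ (fun r hr => hcomm r (le_sup_left (a := R) hr)) with h | h
      · exfalso
        apply hz
        have h5 : φ M32.z = g⁻¹ * (g * φ M32.z * g⁻¹) * g := by group
        rw [h5, h]; group
      · exact h
    have hgC : g ∈ C := mem_centralizer_singleton_iff.2 (by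
      calc g * φ M32.z = g * φ M32.z * g⁻¹ * g := by group
        _ = φ M32.z * g := by rw [hgz])
    have key : ∀ c ∈ C, (∃ j : ℕ, c ^ 2 ^ j = 1) → c ∈ Subgroup.closure {y | y ∈ (⊤ : Subgroup G) ∧
        (∀ x, x ∈ U ↔ g * x * g⁻¹ ∈ U) ∧ (∀ x, x ∈ R ↔ y * x * y⁻¹ ∈ R) ∧ ∃ k : ℕ, y ^ 2 ^ k = 1} := by
      intro c hc hj
      exact subset_closure ⟨mem_top _, hgU, fun x => mem_normalizer_iff.1 (hCN hc) x, hj⟩
    obtain ⟨q, hq, a, ha, rfl⟩ := hmem g hgC
    refine mul_mem (key q (hRC hq) ⟨5, ?_⟩) ?_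
    · have h1 : (⟨q, hq⟩ : R) ^ 32 = 1 := by rw [← hcR]; exact pow_card_eq_one'
      exact congrArg Subtype.val h1
    · obtain ⟨α, h1, h2⟩ := a5_two (eA ⟨a, ha⟩)
      set α' : A := eA.symm α with hα
      have h3 : α' * α' = 1 := by rw [hα, ← map_mul, h1, map_one]
      have h4 : (α' * ⟨a, ha⟩) * (α' * ⟨a, ha⟩) = 1 := by
        apply eA.injective
        rw [map_mul, map_mul, hα, eA.apply_symm_apply, map_one]
        exact h2
      have h5 : a = (α' : G) * ((α' : G) * a) := by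
        have h6 : (α' : G) * (α' : G) = 1 := congrArg Subtype.val h3
        rw [← mul_assoc, h6, one_mul]
      have h7 := mul_mem (key _ (hAC α'.2) ⟨1, by rw [pow_one, pow_two]; exact congrArg Subtype.val h3⟩)
        (key _ (mul_mem (hAC α'.2) (hAC ha)) ⟨1, by rw [pow_one, pow_two]; exact congrArg Subtype.val h4⟩)
      rwa [← h5] at h7

end Cfsg.Agent.SiftX
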